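import Cfsg.Agent.H40.RegularBlocks
import Cfsg.Agent.H27.Permutation
import Cfsg.Agent.H44.Inflation

/-!
# The principal block of a central product with a `p`-group as intersection
-/

set_option autoImplicit false

namespace Cfsg.Agent.H28.CentralProductBlock

open Cfsg
open Cfsg.Agent.H41 (localRing res memLocalIdeal_iff_res memLocalIdeal_coe_iff isIntegral_mem_localRing)

variable {G : Type*} [Group G] (U V : Subgroup G) (hcomm : ∀ u ∈ U, ∀ v ∈ V, u * v = v * u)

/-- The multiplication map of two elementwise commuting subgroups. -/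
def mulHom : U × V →* G :=
  U.subtype.noncommCoprod V.subtype (fun u v => hcomm u u.2 v v.2)

@[simp] theorem mulHom_apply (x : U × V) : mulHom U V hcomm x = (x.1 : G) * (x.2 : G) := rfl

theorem mulHom_surjective (hgen : U ⊔ V = ⊤) : Function.Surjective (mulHom U V hcomm) := by
  rw [← MonoidHom.range_eq_top]
  refine (MonoidHom.noncommCoprod_range _ _ _).trans ?_
  rw [Subgroup.range_subtype, Subgroup.range_subtype, hgen]

variable [Finite G] {p : ℕ} [Fact p.Prime]

include hcomm in
/-- A regular element is the product of regular elements. -/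
theorem exists_regular_factors (hgen : U ⊔ V = ⊤) {g : G} (hg : ¬ p ∣ orderOf g) :
    ∃ (u : U) (v : V), ¬ p ∣ orderOf u ∧ (u : G) * v = g := by
  have hp := (Fact.out : p.Prime)
  obtain ⟨⟨u, v⟩, huv⟩ := mulHom_surjective U V hcomm hgen g
  obtain ⟨a, m, hm, hN⟩ := Nat.exists_eq_pow_mul_and_not_dvd (Nat.card_pos (α := G)).ne' p hp.ne_one
  obtain ⟨k, hk1, hk2⟩ := Nat.chineseRemainder ((hp.coprime_iff_not_dvd.2 hm).pow_left a) 0 1
  have hdm : orderOf g ∣ m :=
    ((hp.coprime_iff_not_dvd.2 hg).pow_left a).symm.dvd_of_dvd_mul_left (hN ▸ orderOf_dvd_natCard g)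
  refine ⟨u ^ k, v ^ k, fun h => hm (h.trans (orderOf_dvd_of_pow_eq_one ?_)), ?_⟩
  · refine Subtype.ext ?_
    rw [← pow_mul, Subgroup.coe_pow, Subgroup.coe_one, ← orderOf_dvd_iff_pow_eq_one]
    exact (orderOf_dvd_natCard _).trans (hN ▸ Nat.mul_dvd_mul_right (Nat.modEq_zero_iff_dvd.1 hk1) m)
  · rw [Subgroup.coe_pow, Subgroup.coe_pow, ← (show Commute (u : G) v from hcomm u u.2 v v.2).mul_pow]
    rw [mulHom_apply] at huv
    rw [huv]
    conv_rhs => rw [← pow_one g]
    rw [pow_eq_pow_iff_modEq]
    exact hk2.of_dvd hdm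

include hcomm in
theorem index_centralizer_mul (hgen : U ⊔ V = ⊤) (hZ : IsPGroup p (U ⊓ V : Subgroup G)) (u : U) (v : V)
    (hu : ¬ p ∣ orderOf u) :
    (Subgroup.centralizer ({(u : G) * v} : Set G)).index =
      (Subgroup.centralizer ({u} : Set U)).index * (Subgroup.centralizer ({v} : Set V)).index := by
  have hp := (Fact.out : p.Prime)
  have hkey : (Subgroup.centralizer ({(u : G) * v} : Set G)).comap (mulHom U V hcomm) =
      (Subgroup.centralizer ({u} : Set U)).prod (Subgroup.centralizer ({v} : Set V)) := by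
    ext ⟨a, b⟩
    rw [Subgroup.mem_comap, Subgroup.mem_prod, mulHom_apply, Subgroup.mem_centralizer_singleton_iff,
      Subgroup.mem_centralizer_singleton_iff, Subgroup.mem_centralizer_singleton_iff]
    dsimp only
    constructor
    · intro h
      -- `z = u⁻¹ a u a⁻¹` lies in both subgroups
      set z : U := u⁻¹ * (a * u * a⁻¹) with hz
      have h1 : ((a * u * a⁻¹ : U) : G) * ((b * v * b⁻¹ : V) : G) = u * v := by
        have e := (show Commute ((a * u * a⁻¹ : U) : G) (b : G) from hcomm _ (a * u * a⁻¹).2 _ b.2).eq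
        calc ((a * u * a⁻¹ : U) : G) * ((b * v * b⁻¹ : V) : G)
            = ((a * u * a⁻¹ : U) : G) * (b : G) * (v : G) * (b : G)⁻¹ := by
              simp only [Subgroup.coe_mul, Subgroup.coe_inv]; group
          _ = (b : G) * ((a : G) * (u : G) * ((a : G)⁻¹ * (v : G))) * (b : G)⁻¹ := by
              rw [e]; simp only [Subgroup.coe_mul, Subgroup.coe_inv]; group
          _ = (b : G) * ((a : G) * (u : G) * ((v : G) * (a : G)⁻¹)) * (b : G)⁻¹ := by
              rw [hcomm _ (inv_mem a.2) _ v.2]
          _ = ((a : G) * b) * ((u : G) * v) * ((a : G) * b)⁻¹ := by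
              rw [(show Commute (a : G) (b : G) from hcomm _ a.2 _ b.2).eq]; group
          _ = u * v := by rw [h, mul_inv_cancel_right]
      have h2 : (z : G) = (v : G) * ((b * v * b⁻¹ : V) : G)⁻¹ := by
        have h3 : ((a * u * a⁻¹ : U) : G) = (u : G) * v * ((b * v * b⁻¹ : V) : G)⁻¹ :=
          eq_mul_inv_of_mul_eq h1
        rw [hz, Subgroup.coe_mul, h3, Subgroup.coe_inv]
        group
      have hzV : (z : G) ∈ V := h2 ▸ mul_mem v.2 (inv_mem (b * v * b⁻¹).2)
      have hcent : Commute u z := Subtype.ext (hcomm u u.2 z hzV)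
      have hz1 : z = 1 := by
        have hord : z ^ orderOf u = 1 := by
          have e : u * z = a * u * a⁻¹ := by rw [hz, mul_inv_cancel_left]
          have := pow_orderOf_eq_one (a * u * a⁻¹)
          rw [show orderOf (a * u * a⁻¹) = orderOf u from (MulAut.conj a).orderOf_eq u, ← e,
            hcent.mul_pow, pow_orderOf_eq_one, one_mul] at this
          exact this
        obtain ⟨j, hj⟩ := hZ ⟨z, z.2, hzV⟩
        have hzp : orderOf z ∣ p ^ j := orderOf_dvd_of_pow_eq_one (Subtype.ext (by
          have := congrArg Subtype.val hj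
          simpa using this))
        exact orderOf_eq_one_iff.1 (Nat.eq_one_of_dvd_coprimes
          ((hp.coprime_iff_not_dvd.2 hu).pow_left j) hzp (orderOf_dvd_of_pow_eq_one hord))
      have hau : a * u * a⁻¹ = u := by
        have e : u * z = a * u * a⁻¹ := by rw [hz, mul_inv_cancel_left]
        rw [← e, hz1, mul_one]
      refine ⟨mul_inv_eq_iff_eq_mul.1 hau, mul_inv_eq_iff_eq_mul.1 (Subtype.ext ?_)⟩
      rw [hau] at h1
      exact mul_left_cancel h1
    · rintro ⟨ha, hb⟩
      have ha' : (a : G) * u = u * a := congrArg Subtype.val ha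
      have hb' : (b : G) * v = v * b := congrArg Subtype.val hb
      exact ((show Commute ((a : G) * b) (u : G) from
          Commute.mul_left ha' (hcomm _ u.2 _ b.2).symm).mul_right
        (show Commute ((a : G) * b) (v : G) from Commute.mul_left (hcomm _ a.2 _ v.2) hb')).eq
  rw [← Subgroup.index_comap_of_surjective _ (mulHom_surjective U V hcomm hgen), hkey, Subgroup.index_prod]

include hcomm in
/-- An irreducible character is the product of its constituents on the two factors. -/
theorem exists_factor [Fintype G] [Fintype U] [Fintype V] (hgen : U ⊔ V = ⊤) (χ : IrrCharacter G)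
    (ψ : IrrCharacter U) (φ : IrrCharacter V)
    (h₁ : classInner (fun u : U => (χ : G → ℂ) u) (ψ : U → ℂ) ≠ 0)
    (h₂ : classInner (fun v : V => (χ : G → ℂ) v) (φ : V → ℂ) ≠ 0) (u : U) (v : V) :
    (χ : G → ℂ) ((u : G) * v) = (ψ : U → ℂ) u * (φ : V → ℂ) v := by
  obtain ⟨α, β, hα, hβ, h⟩ := (H27.isIrrCharacter_prod_iff _).1
    (H44.isIrrCharacter_comp_surjective (mulHom U V hcomm) (mulHom_surjective U V hcomm hgen) χ.2)
  have hval : ∀ (u : U) (v : V), (χ : G → ℂ) ((u : G) * v) = α u * β v := fun u v => congrFun h (u, v)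
  have h1' : α = (ψ : U → ℂ) := by
    by_contra hne
    apply h₁
    have e : (fun u : U => (χ : G → ℂ) u) = fun u => β 1 * α u := funext fun u => by
      rw [mul_comm, ← hval, Subgroup.coe_one, mul_one]
    have h0 := H57.irr_inner_ne hα ψ.2 hne
    rw [e]
    simp only [classInner] at h0 ⊢
    simp only [mul_assoc, ← Finset.mul_sum]
    rw [mul_left_comm, h0, mul_zero]
  have h2' : β = (φ : V → ℂ) := by
    by_contra hne
    apply h₂
    have e : (fun v : V => (χ : G → ℂ) v) = fun v => α 1 * β v := funext fun v => by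
      rw [← hval, Subgroup.coe_one, one_mul]
    have h0 := H57.irr_inner_ne hβ φ.2 hne
    rw [e]
    simp only [classInner] at h0 ⊢
    simp only [mul_assoc, ← Finset.mul_sum]
    rw [mul_left_comm, h0, mul_zero]
  rw [hval, h1', h2']

theorem principalBlock_iff [Fintype G] {M : Ideal AlgInt} (hM : IsPModular p M) [Fintype U] [Fintype V]
    (hcomm : ∀ u ∈ U, ∀ v ∈ V, u * v = v * u) (hgen : U ⊔ V = ⊤) (hZ : IsPGroup p (U ⊓ V : Subgroup G))
    (χ : IrrCharacter G) (ψ : IrrCharacter U) (φ : IrrCharacter V)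
    (h₁ : classInner (fun u : U => (χ : G → ℂ) u) (ψ : U → ℂ) ≠ 0)
    (h₂ : classInner (fun v : V => (χ : G → ℂ) v) (φ : V → ℂ) ≠ 0) :
    χ ∈ principalBlock M G ↔ (ψ ∈ principalBlock M U ∧ φ ∈ principalBlock M V) := by
  have := hM.2.1
  have hp := (Fact.out : p.Prime)
  have hfac := exists_factor U V hcomm hgen χ ψ φ h₁ h₂
  have hone : ∀ {H : Type _} [Group H] (g : H),
      centralChar (fun _ : H => (1 : ℂ)) g = ((Subgroup.centralizer ({g} : Set H)).index : ℂ) := by
    intro H _ g; simp [centralChar]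
  have hω : ∀ (u : U) (v : V), ¬ p ∣ orderOf u → centralChar (χ : G → ℂ) ((u : G) * v) =
      centralChar (ψ : U → ℂ) u * centralChar (φ : V → ℂ) v := by
    intro u v hu
    have h11 : (χ : G → ℂ) 1 = (ψ : U → ℂ) 1 * (φ : V → ℂ) 1 := by
      have := hfac 1 1
      rwa [Subgroup.coe_one, Subgroup.coe_one, one_mul] at this
    simp only [centralChar, index_centralizer_mul U V hcomm hgen hZ u v hu, hfac, h11]
    push_cast
    ring
  have hpU : ¬ p ∣ orderOf (1 : U) := by simpa using hp.not_dvd_one
  have hone1 : ∀ {H : Type _} [Group H] (θ : IrrCharacter H), Finite H →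
      centralChar (θ : H → ℂ) 1 = 1 ∧ (Subgroup.centralizer ({(1 : H)} : Set H)).index = 1 := by
    intro H _ θ hfin
    haveI := hfin
    have hc : Subgroup.centralizer ({(1 : H)} : Set H) = ⊤ :=
      eq_top_iff.2 fun x _ => Subgroup.mem_centralizer_singleton_iff.2 (by simp)
    have hi : (Subgroup.centralizer ({(1 : H)} : Set H)).index = 1 := by rw [hc, Subgroup.index_top]
    refine ⟨?_, hi⟩
    simp only [centralChar, hi, Nat.cast_one, one_mul]
    exact div_self (H26.irr_one_ne_zero θ)
  constructor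
  · intro h
    constructor
    · refine H41.sameBlock_symm (H40.sameBlock_of_regular hM (χ := ψ) (ψ := H26.oneIrr U) fun u hu => ?_)
      obtain ⟨h1, e1⟩ := memLocalIdeal_iff_res.1 (h ((u : G) * (1 : V)))
      have hx : centralChar (ψ : U → ℂ) u - centralChar (fun _ : U => (1 : ℂ)) u =
          -(centralChar (fun _ : G => (1 : ℂ)) ((u : G) * (1 : V)) - centralChar (χ : G → ℂ) ((u : G) * (1 : V))) := by
        rw [hω u 1 hu, (hone1 φ inferInstance).1, hone, hone, index_centralizer_mul U V hcomm hgen hZ u 1 hu,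
          (hone1 φ inferInstance).2]
        ring
      change MemLocalIdeal M (centralChar (ψ : U → ℂ) u - centralChar (fun _ : U => (1 : ℂ)) u)
      rw [hx, memLocalIdeal_iff_res]
      refine ⟨(localRing M).neg_mem h1, ?_⟩
      rw [show (⟨-_, (localRing M).neg_mem h1⟩ : localRing M) = -⟨_, h1⟩ from rfl, map_neg, e1, neg_zero]
    · refine H41.sameBlock_symm (H40.sameBlock_of_regular hM (χ := φ) (ψ := H26.oneIrr V) fun v _ => ?_)
      obtain ⟨h1, e1⟩ := memLocalIdeal_iff_res.1 (h (((1 : U) : G) * v))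
      have hx : centralChar (φ : V → ℂ) v - centralChar (fun _ : V => (1 : ℂ)) v =
          -(centralChar (fun _ : G => (1 : ℂ)) (((1 : U) : G) * v) - centralChar (χ : G → ℂ) (((1 : U) : G) * v)) := by
        rw [hω 1 v hpU, (hone1 ψ inferInstance).1, hone, hone, index_centralizer_mul U V hcomm hgen hZ 1 v hpU,
          (hone1 ψ inferInstance).2]
        ring
      change MemLocalIdeal M (centralChar (φ : V → ℂ) v - centralChar (fun _ : V => (1 : ℂ)) v)
      rw [hx, memLocalIdeal_iff_res]
      refine ⟨(localRing M).neg_mem h1, ?_⟩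
      rw [show (⟨-_, (localRing M).neg_mem h1⟩ : localRing M) = -⟨_, h1⟩ from rfl, map_neg, e1, neg_zero]
  · rintro ⟨h1, h2⟩
    refine H41.sameBlock_symm (H40.sameBlock_of_regular hM (χ := χ) (ψ := H26.oneIrr G) fun g hg => ?_)
    obtain ⟨u, v, hu, rfl⟩ := exists_regular_factors U V hcomm hgen hg
    obtain ⟨m1, e1⟩ := memLocalIdeal_iff_res.1 (h1 u)
    obtain ⟨m2, e2⟩ := memLocalIdeal_iff_res.1 (h2 v)
    rw [hone] at m1 m2
    have mU : centralChar (ψ : U → ℂ) u ∈ localRing M := isIntegral_mem_localRing (H41.isIntegral_centralChar ψ u)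
    have mV : ((Subgroup.centralizer ({v} : Set V)).index : ℂ) ∈ localRing M := natCast_mem _ _
    change MemLocalIdeal M (centralChar (χ : G → ℂ) ((u : G) * v) - centralChar (fun _ : G => (1 : ℂ)) ((u : G) * v))
    rw [hω u v hu, hone, index_centralizer_mul U V hcomm hgen hZ u v hu]
    have hx : centralChar (ψ : U → ℂ) u * centralChar (φ : V → ℂ) v -
        (((Subgroup.centralizer ({u} : Set U)).index * (Subgroup.centralizer ({v} : Set V)).index : ℕ) : ℂ) =
        -((((Subgroup.centralizer ({u} : Set U)).index : ℂ) - centralChar (ψ : U → ℂ) u) * ((Subgroup.centralizer ({v} : Set V)).index : ℂ) +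
          centralChar (ψ : U → ℂ) u * (((Subgroup.centralizer ({v} : Set V)).index : ℂ) - centralChar (φ : V → ℂ) v)) := by
      push_cast; ring
    rw [hx, memLocalIdeal_iff_res]
    refine ⟨(localRing M).neg_mem ((localRing M).add_mem ((localRing M).mul_mem m1 mV) ((localRing M).mul_mem mU m2)), ?_⟩
    have key : res M (-(⟨_, m1⟩ * ⟨_, mV⟩ + ⟨_, mU⟩ * ⟨_, m2⟩)) = 0 := by
      simp only [hone] at e1 e2
      rw [map_neg, map_add, map_mul, map_mul, e1, e2, zero_mul, mul_zero, add_zero, neg_zero]
    exact key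

end Cfsg.Agent.H28.CentralProductBlock
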