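import Cfsg.Agent.H27.Permutation
import Cfsg.Agent.H44.NormalDegrees
import Cfsg.Agent.H44.Inflation
import Cfsg.Agent.H43.CharTools
import Cfsg.Agent.H43.Constituents
import Cfsg.Agent.H84.PSolvable
import Cfsg.Agent.H20.Sylow
import Cfsg.Agent.H21.Complement
import Cfsg.Agent.H23.PPrimeQuotient
import Cfsg.Agent.H86.OrderCounts

/-!
# Defect zero when elements of orders `p` and `q` never commute
-/

set_option autoImplicit false
set_option linter.unusedSectionVars false

namespace Cfsg.Agent.H28.DefectZeroSeparated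

open Cfsg

universe u

variable {G : Type u} [Group G] [Finite G]

/-- Elements of orders `p` and `q` never commute. -/
def Sep (p q : ℕ) (G : Type u) [Group G] : Prop :=
  ∀ x y : G, orderOf x = p → orderOf y = q → ¬ Commute x y

theorem Sep.symm {p q : ℕ} (h : Sep p q G) : Sep q p G := fun x y hx hy hc => h y x hy hx hc.symm

/-- An automorphism moving a class moves an irreducible character. -/
theorem exists_irr_moved (α : G ≃* G) (C : ConjClasses G) (h : ConjClasses.map α.toMonoidHom C ≠ C) :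
    ∃ θ : IrrCharacter G, (θ : G → ℂ) ∘ α ≠ (θ : G → ℂ) := by
  by_contra hall
  push Not at hall
  haveI : Finite (ConjClasses G) := Quotient.finite _
  have h1 := H27.card_fixed_classes_eq_card_fixed_irr α
  have h2 := H27.card_fixed_classes_eq_card_fixed_irr (MulEquiv.refl G)
  have h3 : Nat.card {χ : IrrCharacter G // (χ : G → ℂ) ∘ α = (χ : G → ℂ)} =
      Nat.card {χ : IrrCharacter G // (χ : G → ℂ) ∘ (MulEquiv.refl G) = (χ : G → ℂ)} :=
    Nat.card_congr (Equiv.subtypeEquivRight fun χ => ⟨fun _ => rfl, fun _ => hall χ⟩)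
  have h4 : Nat.card {C : ConjClasses G // ConjClasses.map (MulEquiv.refl G).toMonoidHom C = C} =
      Nat.card (ConjClasses G) :=
    Nat.card_congr (Equiv.subtypeUnivEquiv fun C => by
      obtain ⟨g, rfl⟩ := ConjClasses.mk_surjective C
      rfl)
  rw [h3, ← h2, h4] at h1
  have hlt : Nat.card {C : ConjClasses G // ConjClasses.map α.toMonoidHom C = C} < Nat.card (ConjClasses G) := by
    classical
    have := Fintype.ofFinite (ConjClasses G)
    rw [Nat.card_eq_fintype_card, Nat.card_eq_fintype_card]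
    exact Fintype.card_subtype_lt h
  omega

/-- A class of a normal subgroup of order prime to `r` fixed by an element of order `r` contains an
element commuting with it. -/
theorem exists_commute_of_fixed_class (N : Subgroup G) [N.Normal] {r : ℕ} [Fact r.Prime] {x : G}
    (hx : orderOf x = r) (hN : ¬ r ∣ Nat.card N) (u : N)
    (hfix : ConjClasses.map (MulAut.conjNormal x : MulAut N).toMonoidHom (ConjClasses.mk u) = ConjClasses.mk u) :
    ∃ v : N, IsConj u v ∧ Commute x (v : G) := by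
  classical
  have := Fintype.ofFinite N
  let C := {v : N // ConjClasses.mk v = ConjClasses.mk u}
  let L : Subgroup G :=
    { carrier := {g | ∀ v : N, ConjClasses.mk v = ConjClasses.mk u →
        ConjClasses.mk (MulAut.conjNormal g v) = ConjClasses.mk u ∧ ConjClasses.mk (MulAut.conjNormal g⁻¹ v) = ConjClasses.mk u}
      one_mem' := fun v hv => by rw [inv_one, map_one]; exact ⟨hv, hv⟩
      mul_mem' := fun {a b} ha hb v hv => by
        rw [mul_inv_rev, map_mul, map_mul, MulAut.mul_apply, MulAut.mul_apply]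
        exact ⟨(ha _ (hb v hv).1).1, (hb _ (ha v hv).2).2⟩
      inv_mem' := fun {a} ha v hv => by rw [inv_inv]; exact ⟨(ha v hv).2, (ha v hv).1⟩ }
  have hpos : ∀ v : N, ConjClasses.mk v = ConjClasses.mk u → ConjClasses.mk (MulAut.conjNormal x v) = ConjClasses.mk u := by
    intro v hv
    have h1 : ConjClasses.map (MulAut.conjNormal x : MulAut N).toMonoidHom (ConjClasses.mk v) = ConjClasses.mk u := by
      rw [hv]; exact hfix
    exact h1
  have hxL : x ∈ L := by
    intro v hv
    refine ⟨hpos v hv, ?_⟩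
    -- the inverse is a positive power
    have hpow : ∀ i : ℕ, ConjClasses.mk (MulAut.conjNormal (x ^ i) v) = ConjClasses.mk u := by
      intro i
      induction i with
      | zero => rw [pow_zero, map_one]; exact hv
      | succ i ih => rw [pow_succ', map_mul, MulAut.mul_apply]; exact hpos _ ih
    have hinv : x⁻¹ = x ^ (r - 1) := inv_eq_of_mul_eq_one_right (by
      rw [← pow_succ', Nat.sub_add_cancel (Fact.out : r.Prime).one_le, ← hx, pow_orderOf_eq_one])
    rw [hinv]; exact hpow _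
  let act : MulAction (Subgroup.zpowers x) C :=
    { smul := fun g v => ⟨MulAut.conjNormal (g : G) v.1, ((Subgroup.zpowers_le.2 hxL g.2) v.1 v.2).1⟩
      one_smul := fun v => Subtype.ext (show MulAut.conjNormal ((1 : Subgroup.zpowers x) : G) v.1 = v.1 by simp)
      mul_smul := fun g h v => Subtype.ext (show MulAut.conjNormal ((g * h : Subgroup.zpowers x) : G) v.1 =
        MulAut.conjNormal (g : G) (MulAut.conjNormal (h : G) v.1) by simp [map_mul]) }
  have hcard : Nat.card C ∣ Nat.card N := by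
    have e : Nat.card C = (MulAction.stabilizer (ConjAct N) u).index := by
      rw [MulAction.index_stabilizer]
      refine Nat.card_congr (Equiv.subtypeEquivRight fun v => ?_)
      rw [ConjClasses.mk_eq_mk_iff_isConj, ConjAct.mem_orbit_conjAct]
    rw [e]
    exact Subgroup.index_dvd_card _
  have hp : IsPGroup r (Subgroup.zpowers x) := IsPGroup.of_card (n := 1) (by rw [Nat.card_zpowers, hx, pow_one])
  obtain ⟨v, hv⟩ := hp.nonempty_fixed_point_of_prime_not_dvd_card C (fun h => hN (h.trans hcard))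
  refine ⟨v.1, (ConjClasses.mk_eq_mk_iff_isConj.1 v.2).symm, ?_⟩
  have h1 : MulAut.conjNormal x v.1 = v.1 := congrArg Subtype.val (hv ⟨x, Subgroup.mem_zpowers x⟩)
  have h2 := congrArg Subtype.val h1
  rw [MulAut.conjNormal_apply] at h2
  exact mul_inv_eq_iff_eq_mul.1 h2

theorem factorization_eq_of_stabilizer [Fintype G] (N : Subgroup G) [N.Normal] [Fintype N] {r : ℕ} [Fact r.Prime]
    (θ : IrrCharacter N) (h : ∀ x ∈ H44.inertia N (θ : N → ℂ), orderOf x ≠ r) :
    ∃ χ : IrrCharacter G, (charDegree (χ : G → ℂ)).factorization r = (Nat.card G).factorization r := by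
  have hr := (Fact.out : r.Prime)
  obtain ⟨χ, hχ⟩ := H43.exists_above N θ
  have hc : classInner (fun n : N => (χ : G → ℂ) n) (θ : N → ℂ) ≠ 0 := by
    rw [H43.classInner_eq_mult (H43.isCharacter_restr N χ)]
    exact Nat.cast_ne_zero.2 hχ
  set T := H44.inertia N (θ : N → ℂ) with hT
  have hd : T.index ∣ charDegree (χ : G → ℂ) :=
    (Dvd.intro _ rfl).trans (H44.degree_mul_index_inertia_dvd N χ θ hc)
  have hrT : ¬ r ∣ Nat.card T := fun hd' => by
    obtain ⟨x, hx⟩ := exists_prime_orderOf_dvd_card' (G := T) r hd'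
    exact h x x.2 (by rw [Subgroup.orderOf_coe]; exact hx)
  refine ⟨χ, le_antisymm ?_ ?_⟩
  · exact (Nat.factorization_le_iff_dvd (H43.irr_charDegree_pos χ).ne' Nat.card_pos.ne').2
      (H43.irr_charDegree_dvd χ) r
  · rw [← T.card_mul_index, Nat.factorization_mul Nat.card_pos.ne' Subgroup.index_ne_zero_of_finite,
      Finsupp.add_apply, Nat.factorization_eq_zero_of_not_dvd hrT, zero_add]
    exact (Nat.factorization_le_iff_dvd Subgroup.index_ne_zero_of_finite (H43.irr_charDegree_pos χ).ne').2 hd r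

theorem comp_eq_of_mem_inertia {N : Subgroup G} [N.Normal] {θ : N → ℂ} {x : G}
    (hx : x ∈ H44.inertia N θ) : θ ∘ (MulAut.conjNormal x : MulAut N) = θ := by
  funext n
  have := congrFun (H44.mem_inertia N |>.1 hx) n
  refine Eq.trans ?_ this
  exact congrArg θ (Subtype.ext (MulAut.conjNormal_apply x n))

variable {p q : ℕ} [Fact p.Prime] [Fact q.Prime]

/-- A non-trivial normal `p`-subgroup gives a character of `q`-defect zero. -/
theorem defectZero_of_pGroup (hS : Sep p q G) (hpq : p ≠ q) (N : Subgroup G) [N.Normal] (hN : IsPGroup p N)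
    (hN1 : N ≠ ⊥) : ∃ χ : IrrCharacter G, (charDegree (χ : G → ℂ)).factorization q = (Nat.card G).factorization q := by
  classical
  have hp := (Fact.out : p.Prime)
  have := Fintype.ofFinite G
  have := Fintype.ofFinite N
  haveI : Finite (ConjClasses N) := Quotient.finite _
  obtain ⟨n, hn⟩ := hN.exists_card_eq
  have hqN : ¬ q ∣ Nat.card N := fun h => by
    rw [hn] at h
    exact hpq ((Nat.prime_dvd_prime_iff_eq Fact.out hp).1 ((Fact.out : q.Prime).dvd_of_dvd_pow h)).symm
  obtain ⟨u, hu⟩ := Subgroup.ne_bot_iff_exists_ne_one.1 hN1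
  -- only the trivial class is fixed
  have key : ∀ y : G, orderOf y = q → ∀ C : ConjClasses N,
      ConjClasses.map (MulAut.conjNormal y : MulAut N).toMonoidHom C = C → C = ConjClasses.mk 1 := by
    intro y hy C hC
    obtain ⟨w, rfl⟩ := ConjClasses.mk_surjective C
    obtain ⟨v, hv, hc⟩ := exists_commute_of_fixed_class N hy hqN w hC
    by_contra hne
    have hv1 : v ≠ 1 := fun e => hne (ConjClasses.mk_eq_mk_iff_isConj.2 (e ▸ hv))
    obtain ⟨j, hj⟩ := IsPGroup.iff_orderOf.1 hN v
    have hj0 : j ≠ 0 := by rintro rfl; rw [pow_zero, orderOf_eq_one_iff] at hj; exact hv1 hj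
    obtain ⟨k, hk⟩ : ∃ k, orderOf ((v : G) ^ k) = p := by
      refine ⟨p ^ (j - 1), ?_⟩
      rw [orderOf_pow' _ (pow_ne_zero _ hp.ne_zero), Subgroup.orderOf_coe, hj,
        Nat.gcd_eq_right (pow_dvd_pow p (Nat.sub_le j 1)), Nat.pow_div (Nat.sub_le j 1) hp.pos,
        show j - (j - 1) = 1 by omega, pow_one]
    exact hS _ y hk hy ((hc.pow_right k).symm)
  obtain ⟨θ, hθ⟩ : ∃ θ : IrrCharacter N, θ ≠ H26.oneIrr N := by
    by_contra hall
    push Not at hall
    have hone : ∀ g : N, g = 1 := fun g => isConj_one_left.1 ((H26.isConj_iff_forall_irr g 1).2 fun χ => by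
      rw [hall χ, H26.oneIrr_val, H26.oneIrr_val])
    exact hu (hone u)
  refine factorization_eq_of_stabilizer N θ fun y hy hyo => hθ ?_
  -- `θ` is fixed by `y`
  have hfix := comp_eq_of_mem_inertia hy
  have h1 := H27.card_fixed_classes_eq_card_fixed_irr (MulAut.conjNormal y : MulAut N)
  have h2 : Nat.card {C : ConjClasses N // ConjClasses.map (MulAut.conjNormal y : MulAut N).toMonoidHom C = C} ≤ 1 := by
    have : Subsingleton {C : ConjClasses N // ConjClasses.map (MulAut.conjNormal y : MulAut N).toMonoidHom C = C} :=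
      ⟨fun a b => Subtype.ext ((key y hyo _ a.2).trans (key y hyo _ b.2).symm)⟩
    exact Finite.card_le_one_iff_subsingleton.2 this
  rw [h1] at h2
  have h3 := Finite.card_le_one_iff_subsingleton.1 h2
  exact congrArg Subtype.val (h3.elim (⟨θ, hfix⟩ : {χ : IrrCharacter N // (χ : N → ℂ) ∘ (MulAut.conjNormal y : MulAut N) = (χ : N → ℂ)})
    ⟨H26.oneIrr N, funext fun g => by rw [Function.comp_apply, H26.oneIrr_val, H26.oneIrr_val]⟩)

/-- A normal subgroup of order prime to `p` and divisible by `q` gives a character of `p`-defect zero. -/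
theorem defectZero_of_pPrime (hS : Sep p q G) (N : Subgroup G) [N.Normal] (hN : ¬ p ∣ Nat.card N)
    (hqN : q ∣ Nat.card N) (hL : pCore p (G ⧸ N) ≠ ⊥) :
    ∃ χ : IrrCharacter G, (charDegree (χ : G → ℂ)).factorization p = (Nat.card G).factorization p := by
  classical
  have hp := (Fact.out : p.Prime)
  have hq := (Fact.out : q.Prime)
  have := Fintype.ofFinite G
  have := Fintype.ofFinite N
  haveI := H19.pCore_normal p (G ⧸ N)
  set L := pCore p (G ⧸ N) with hLdef
  obtain ⟨P⟩ : Nonempty (Sylow p G) := inferInstance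
  have hLP : L ≤ (P : Subgroup G).map (QuotientGroup.mk' N) :=
    (H19.pCore_le_sylow (P.mapSurjective (QuotientGroup.mk'_surjective N))).trans (le_of_eq (Sylow.coe_mapSurjective _ P))
  have hinj : ∀ a ∈ (P : Subgroup G), a ∈ N → a = 1 := fun a ha haN =>
    H23.injOn_mk_of_isPGroup N hN P.2 ha (one_mem _) (by
      rw [map_one]; exact (QuotientGroup.eq_one_iff a).2 haN)
  -- a subgroup of order `p` of `P` over `L`
  obtain ⟨l, hl, hl1⟩ : ∃ l ∈ L, orderOf l = p := by
    obtain ⟨n, hn⟩ := (H19.pCore_isPGroup (G := G ⧸ N) p).exists_card_eq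
    have hn0 : n ≠ 0 := by rintro rfl; rw [pow_zero] at hn; exact hL (Subgroup.eq_bot_of_card_eq _ hn)
    obtain ⟨l, hl⟩ := exists_prime_orderOf_dvd_card' (G := L) p (hn ▸ dvd_pow_self p hn0)
    exact ⟨l, l.2, by rw [Subgroup.orderOf_coe]; exact hl⟩
  have hordP : ∀ a ∈ (P : Subgroup G), orderOf (a : G ⧸ N) = p → orderOf a = p := by
    intro a ha hao
    refine Nat.dvd_antisymm ?_ (hao ▸ orderOf_map_dvd (QuotientGroup.mk' N) a)
    apply orderOf_dvd_of_pow_eq_one
    refine hinj _ (pow_mem ha p) ?_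
    rw [← QuotientGroup.eq_one_iff, QuotientGroup.mk_pow, ← hao, pow_orderOf_eq_one]
  obtain ⟨z, hzP, hzl⟩ := hLP hl
  have hz : orderOf z = p := hordP z hzP (by rw [← hl1, ← hzl]; rfl)
  -- a `q`-subgroup of `N` invariant under `P`
  obtain ⟨Q, hQ⟩ := H20.exists_invariant_sylow (A := (P : Subgroup G)) (K := N)
    (Subgroup.normalizer_eq_top (H := N) ▸ le_top)
    (by obtain ⟨n, hn⟩ := P.2.exists_card_eq; rw [hn]; exact (hp.coprime_iff_not_dvd.2 hN).pow_left n)
    (Or.inl (by haveI := P.2.isNilpotent; infer_instance)) q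
  set W := (Q : Subgroup N).map N.subtype with hW
  have hWq : IsPGroup q W := H20.isPGroup_map_sylow Q
  have hWne : W ≠ ⊥ := by
    rw [hW, Ne, Subgroup.map_eq_bot_iff_of_injective _ N.subtype_injective]
    exact Q.ne_bot_of_dvd_card hqN
  obtain ⟨w0, hw0⟩ := Subgroup.ne_bot_iff_exists_ne_one.1 hWne
  have : Nontrivial W := ⟨w0, 1, hw0⟩
  have hinvW : ∀ e : (P : Subgroup G), ∀ w ∈ W, ((MulAut.conj : G →* MulAut G).comp (P : Subgroup G).subtype) e w ∈ W :=
    fun e w hw => (Subgroup.mem_normalizer_iff.1 (hQ e.2) w).1 hw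
  let ψ := H21.restrictAut ((MulAut.conj : G →* MulAut G).comp (P : Subgroup G).subtype) W hinvW
  have hfpf : ∀ e : (P : Subgroup G), e ≠ 1 → ∀ k : W, ψ e k = k → k = 1 := by
    intro e he k hk
    by_contra hk1
    have h1 : (e : G) * k * (e : G)⁻¹ = k := congrArg Subtype.val hk
    have hc : Commute (e : G) (k : G) := mul_inv_eq_iff_eq_mul.1 h1
    obtain ⟨a, ha⟩ := IsPGroup.iff_orderOf.1 P.2 e
    obtain ⟨b, hb⟩ := IsPGroup.iff_orderOf.1 hWq k
    have ha0 : a ≠ 0 := by rintro rfl; rw [pow_zero, orderOf_eq_one_iff] at ha; exact he ha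
    have hb0 : b ≠ 0 := by rintro rfl; rw [pow_zero, orderOf_eq_one_iff] at hb; exact hk1 hb
    obtain ⟨x, hxo, i, hxi⟩ : ∃ x : G, orderOf x = p ∧ ∃ i : ℕ, x = (e : G) ^ i := by
      refine ⟨(e : G) ^ p ^ (a - 1), ?_, _, rfl⟩
      rw [orderOf_pow' _ (pow_ne_zero _ hp.ne_zero), Subgroup.orderOf_coe, ha,
        Nat.gcd_eq_right (pow_dvd_pow p (Nat.sub_le a 1)), Nat.pow_div (Nat.sub_le a 1) hp.pos,
        show a - (a - 1) = 1 by omega, pow_one]
    obtain ⟨y, hyo, j, hyj⟩ : ∃ y : G, orderOf y = q ∧ ∃ j : ℕ, y = (k : G) ^ j := by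
      refine ⟨(k : G) ^ q ^ (b - 1), ?_, _, rfl⟩
      rw [orderOf_pow' _ (pow_ne_zero _ hq.ne_zero), Subgroup.orderOf_coe, hb,
        Nat.gcd_eq_right (pow_dvd_pow q (Nat.sub_le b 1)), Nat.pow_div (Nat.sub_le b 1) hq.pos,
        show b - (b - 1) = 1 by omega, pow_one]
    exact hS x y hxo hyo (hxi ▸ hyj ▸ hc.pow_pow i j)
  have huniq : ∀ a ∈ (P : Subgroup G), orderOf a = p → z ∈ Subgroup.zpowers a := by
    intro a ha hao
    have h := H21.unique_subgroup_of_fpf P.2 ψ hfpf (Subgroup.zpowers (⟨a, ha⟩ : (P : Subgroup G)))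
      (Subgroup.zpowers (⟨z, hzP⟩ : (P : Subgroup G)))
      (by rw [Nat.card_zpowers, Subgroup.orderOf_mk, hao]) (by rw [Nat.card_zpowers, Subgroup.orderOf_mk, hz])
    have h1 : (⟨z, hzP⟩ : (P : Subgroup G)) ∈ Subgroup.zpowers (⟨a, ha⟩ : (P : Subgroup G)) :=
      h ▸ Subgroup.mem_zpowers _
    obtain ⟨i, hi⟩ := Subgroup.mem_zpowers_iff.1 h1
    exact Subgroup.mem_zpowers_iff.2 ⟨i, congrArg Subtype.val hi⟩
  -- `z` moves some character
  obtain ⟨w, hw⟩ := exists_prime_orderOf_dvd_card' (G := N) q hqN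
  have hmoved : ConjClasses.map (MulAut.conjNormal z : MulAut N).toMonoidHom (ConjClasses.mk w) ≠ ConjClasses.mk w := by
    intro hfix
    obtain ⟨v, hv, hc⟩ := exists_commute_of_fixed_class N hz hN w hfix
    obtain ⟨c, hcv⟩ := isConj_iff.1 hv
    refine hS z v hz ?_ hc
    rw [Subgroup.orderOf_coe, ← hcv, ← MulAut.conj_apply, MulEquiv.orderOf_eq, hw]
  obtain ⟨θ, hθ⟩ := exists_irr_moved _ _ hmoved
  refine factorization_eq_of_stabilizer N θ fun x hx hxo => hθ (comp_eq_of_mem_inertia (?_ : z ∈ H44.inertia N (θ : N → ℂ)))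
  -- the image of every element of order `p` lies in the image of `⟨z⟩`
  obtain ⟨R, hR⟩ := (IsPGroup.of_card (n := 1) (G := Subgroup.zpowers x) (by rw [Nat.card_zpowers, hxo, pow_one])).exists_le_sylow
  obtain ⟨g, hg⟩ := MulAction.exists_smul_eq G P R
  have hxR : x ∈ ((g • P : Sylow p G) : Subgroup G) := hg.symm ▸ hR (Subgroup.mem_zpowers x)
  rw [Sylow.coe_subgroup_smul] at hxR
  obtain ⟨y, hyP, hyx⟩ := hxR
  have hyo : orderOf y = p := by rw [← hxo, ← hyx]; exact ((MulAut.conj g).orderOf_eq y).symm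
  obtain ⟨i, hi⟩ := Subgroup.mem_zpowers_iff.1 (huniq y hyP hyo)
  obtain ⟨j, hj⟩ : ∃ j : ℤ, y = z ^ j := by
    have hle : Subgroup.zpowers y = Subgroup.zpowers z := (Subgroup.eq_of_le_of_card_ge
      (Subgroup.zpowers_le.2 (Subgroup.mem_zpowers_iff.2 ⟨i, hi⟩))
      (by rw [Nat.card_zpowers, Nat.card_zpowers, hyo, hz])).symm
    obtain ⟨j, hj⟩ := Subgroup.mem_zpowers_iff.1 (hle ▸ Subgroup.mem_zpowers y)
    exact ⟨j, hj.symm⟩
  have hxL : (x : G ⧸ N) ∈ L := by
    rw [← hyx]
    simp only [MulEquiv.coe_toMonoidHom, MulDistribMulAction.toMonoidEnd_apply, MulDistribMulAction.toMonoidHom_apply,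
      MulAut.smul_def, MulAut.conj_apply, QuotientGroup.mk_mul, QuotientGroup.mk_inv, hj, QuotientGroup.mk_zpow]
    refine (inferInstance : L.Normal).conj_mem _ (zpow_mem ?_ j) _
    rw [← hzl] at hl
    exact hl
  obtain ⟨a, haP, hax⟩ := hLP hxL
  have hax' : (a : G ⧸ N) = (x : G ⧸ N) := hax
  have hxN : x ∉ N := fun h => by
    have := (Nat.dvd_trans (Subgroup.orderOf_coe (⟨x, h⟩ : N) ▸ orderOf_dvd_natCard (⟨x, h⟩ : N)) dvd_rfl)
    exact hN (hxo ▸ this)
  have hao : orderOf a = p := hordP a haP (by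
    rw [hax']
    refine orderOf_eq_prime ?_ fun e => hxN ((QuotientGroup.eq_one_iff x).1 e)
    rw [← QuotientGroup.mk_pow, ← hxo, pow_orderOf_eq_one, QuotientGroup.mk_one])
  have haT : a ∈ H44.inertia N (θ : N → ℂ) := by
    have hmem : x⁻¹ * a ∈ N := QuotientGroup.eq.1 hax'.symm
    have := mul_mem hx (H44.le_inertia N (H26.irr_isClassFunction θ) hmem)
    rwa [mul_inv_cancel_left] at this
  exact Subgroup.zpowers_le.2 haT (huniq a haP hao)

theorem sep_quotient (hS : Sep p q G) (N : Subgroup G) [N.Normal] (hN : ¬ p ∣ Nat.card N) : Sep p q (G ⧸ N) := by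
  intro X Y hX hY hc
  have hp := (Fact.out : p.Prime)
  obtain ⟨P⟩ : Nonempty (Sylow p G) := inferInstance
  obtain ⟨R, hR⟩ := (IsPGroup.of_card (n := 1) (G := Subgroup.zpowers X) (by rw [Nat.card_zpowers, hX, pow_one])).exists_le_sylow
  obtain ⟨P', hP'⟩ := Sylow.mapSurjective_surjective (QuotientGroup.mk'_surjective N) p R
  have hXR : X ∈ ((P' : Subgroup G).map (QuotientGroup.mk' N)) := by
    rw [← Sylow.coe_mapSurjective (QuotientGroup.mk'_surjective N) P', hP']
    exact hR (Subgroup.mem_zpowers X)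
  obtain ⟨x, hxP, hxX⟩ := hXR
  have hx : orderOf x = p := by
    refine Nat.dvd_antisymm (orderOf_dvd_of_pow_eq_one (H23.injOn_mk_of_isPGroup N hN P'.2 (pow_mem hxP p) (one_mem _) ?_))
      (hX ▸ hxX ▸ orderOf_map_dvd (QuotientGroup.mk' N) x)
    rw [map_pow, map_one, hxX, ← hX, pow_orderOf_eq_one]
  have hcent := H23.centralizer_map_mk N hN
    (IsPGroup.of_card (n := 1) (G := Subgroup.zpowers x) (by rw [Nat.card_zpowers, hx, pow_one]))
  have hYc : Y ∈ Subgroup.centralizer (((Subgroup.zpowers x).map (QuotientGroup.mk' N) : Subgroup (G ⧸ N)) : Set (G ⧸ N)) := by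
    rw [MonoidHom.map_zpowers, hxX, Subgroup.mem_centralizer_iff]
    intro h hh
    obtain ⟨i, rfl⟩ := Subgroup.mem_zpowers_iff.1 hh
    exact (hc.zpow_left i).eq
  rw [hcent] at hYc
  obtain ⟨c, hcc, hcY⟩ := hYc
  have hd : q ∣ orderOf c := hY ▸ hcY ▸ orderOf_map_dvd (QuotientGroup.mk' N) c
  obtain ⟨k, hk⟩ := hd
  have hk0 : k ≠ 0 := by rintro rfl; rw [mul_zero] at hk; exact (orderOf_pos c).ne' hk
  have hy : orderOf (c ^ k) = q := by
    rw [orderOf_pow' _ hk0, hk, Nat.gcd_mul_left_left, Nat.mul_div_cancel _ (Nat.pos_of_ne_zero hk0)]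
  refine hS x (c ^ k) hx hy ?_
  exact ((show Commute x c from Subgroup.mem_centralizer_iff.1 hcc x (Subgroup.mem_zpowers x))).pow_right k

/-- Groups soluble for one of the primes have defect zero for one of them. -/
theorem exists_defectZero (hS : Sep p q G) (hpq : p ≠ q) (hpG : p ∣ Nat.card G) (hsolv : IsPSolvable p G) :
    (∃ χ : IrrCharacter G, (charDegree (χ : G → ℂ)).factorization p = (Nat.card G).factorization p) ∨
    (∃ χ : IrrCharacter G, (charDegree (χ : G → ℂ)).factorization q = (Nat.card G).factorization q) := by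
  have hp := (Fact.out : p.Prime)
  haveI : Nontrivial G := Finite.one_lt_card_iff_nontrivial.1
    (hp.one_lt.trans_le (Nat.le_of_dvd Nat.card_pos hpG))
  haveI := H19.pCore_normal p G
  by_cases hO : pCore p G = ⊥
  swap
  · exact Or.inr (defectZero_of_pGroup hS hpq _ (H19.pCore_isPGroup p) hO)
  haveI := H19.pPrimeCore_normal p G
  set N := pPrimeCore p G with hNdef
  have hN : ¬ p ∣ Nat.card N := fun h =>
    hp.ne_one (Nat.eq_one_of_dvd_coprimes (H19.pPrimeCore_coprime p) h dvd_rfl)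
  have hidx : p ∣ Nat.card (G ⧸ N) := by
    rw [Subgroup.card_eq_card_quotient_mul_card_subgroup N] at hpG
    exact (hp.dvd_mul.1 hpG).resolve_right hN
  haveI : Nontrivial (G ⧸ N) := Finite.one_lt_card_iff_nontrivial.1
    (hp.one_lt.trans_le (Nat.le_of_dvd Nat.card_pos hidx))
  have hsq := H84.isPSolvable_of_surjective (QuotientGroup.mk' N) (QuotientGroup.mk'_surjective N) hsolv
  have hL : pCore p (G ⧸ N) ≠ ⊥ := (H84.pCore_ne_bot_or_pPrimeCore_ne_bot hsq).resolve_right
    (not_not.2 (H19.pPrimeCore_quotient_pPrimeCore p))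
  by_cases hqN : q ∣ Nat.card N
  · exact Or.inl (defectZero_of_pPrime hS N hN hqN hL)
  · haveI := H19.pCore_normal p (G ⧸ N)
    obtain ⟨χ, hχ⟩ := defectZero_of_pGroup (sep_quotient hS N hN) hpq _ (H19.pCore_isPGroup p) hL
    refine Or.inr ⟨H44.inflate N χ, ?_⟩
    have h1 : (H44.inflate N χ : G → ℂ) 1 = (χ : G ⧸ N → ℂ) 1 := H44.inflate_apply N χ 1
    rw [show charDegree (H44.inflate N χ : G → ℂ) = charDegree (χ : G ⧸ N → ℂ) by rw [charDegree, charDegree, h1],
      hχ, Subgroup.card_eq_card_quotient_mul_card_subgroup N, Nat.factorization_mul Nat.card_pos.ne' Nat.card_pos.ne',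
      Finsupp.add_apply, Nat.factorization_eq_zero_of_not_dvd hqN, add_zero]

end Cfsg.Agent.H28.DefectZeroSeparated
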