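import Cfsg.Agent.H40.BlockSets
import Cfsg.Agent.H40.CharCongr
import Cfsg.Agent.H43.CharTools
import Cfsg.Agent.H44.NormalDegrees
import Mathlib.Algebra.Field.ZMod

/-!
# Members of degree prime to `p` of a block over a character of a normal subgroup
-/

set_option autoImplicit false
set_option linter.unusedSectionVars false

namespace Cfsg.Agent.H28.OverCharacterCount

open Cfsg
open scoped ComplexConjugate
open Cfsg.Agent.H41 (localRing res memLocalIdeal_iff_res)

variable {G : Type*} [Group G] [Fintype G] {p : ℕ} [Fact p.Prime]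

open scoped Classical in
/-- Block orthogonality restricted to the characters over `θ`. -/
theorem sum_over_eq_zero {M : Ideal AlgInt} (hM : IsPModular p M) {B : Set (IrrCharacter G)} (hB : IsPBlock M B)
    (N : Subgroup G) [hN : N.Normal] [Fintype N] (θ : IrrCharacter N) {u : G}
    (hu : ∀ n ∈ N, p ∣ orderOf (n * u)) :
    ∑ χ ∈ Finset.univ.filter (fun χ : IrrCharacter G => χ ∈ B ∧ classInner (fun n : N => (χ : G → ℂ) n) (θ : N → ℂ) ≠ 0),
      (χ : G → ℂ) 1 * (χ : G → ℂ) u = 0 := by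
  have := hM.2.1
  let f : G → ℂ := fun x => if h : x ∈ N then ∑ g : G, conj ((θ : N → ℂ) ⟨g * x * g⁻¹, hN.conj_mem x h g⟩) else 0
  have hf : IsClassFunction G f := by
    intro a b
    by_cases ha : a ∈ N
    · simp only [f, dif_pos ha, dif_pos (hN.conj_mem a ha b)]
      refine Fintype.sum_equiv (Equiv.mulRight b) _ _ fun g => ?_
      refine congrArg (fun z => conj ((θ : N → ℂ) z)) (Subtype.ext ?_)
      simp [mul_assoc]
    · have hb : b * a * b⁻¹ ∉ N := fun h => ha (by simpa [mul_assoc] using hN.conj_mem _ h b⁻¹)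
      simp only [f, dif_neg ha, dif_neg hb]
  have hsum : ∀ F : G → ℂ, ∑ x, f x * F x = ∑ n : N, f n * F n := fun F => by
    rw [← Finset.sum_subset (Finset.subset_univ (Finset.univ.filter (· ∈ N))) (fun x _ hx => by
      simp only [Finset.mem_filter, Finset.mem_univ, true_and] at hx
      simp only [f, dif_neg hx, zero_mul])]
    exact Finset.sum_subtype _ (by simp) _
  have hm : ∀ χ : IrrCharacter G, ∑ x, f x * (χ : G → ℂ) x =
      (Nat.card G : ℂ) * (Nat.card N : ℂ) * classInner (fun n : N => (χ : G → ℂ) n) (θ : N → ℂ) := by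
    intro χ
    rw [hsum]
    have h1 : ∀ g : G, ∑ n : N, conj ((θ : N → ℂ) ⟨g * n * g⁻¹, hN.conj_mem n n.2 g⟩) * (χ : G → ℂ) n =
        (Nat.card N : ℂ) * classInner (fun n : N => (χ : G → ℂ) n) (θ : N → ℂ) := by
      intro g
      rw [classInner, mul_inv_cancel_left₀ (Nat.cast_ne_zero.2 Nat.card_pos.ne')]
      refine Fintype.sum_equiv (H56.twistEquiv N g) _ _ fun n => ?_
      rw [mul_comm]
      congr 1
      exact (H26.irr_conj χ (n : G) g).symm
    calc ∑ n : N, f n * (χ : G → ℂ) n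
        = ∑ g : G, ∑ n : N, conj ((θ : N → ℂ) ⟨g * n * g⁻¹, hN.conj_mem n n.2 g⟩) * (χ : G → ℂ) n := by
          rw [Finset.sum_comm]
          refine Finset.sum_congr rfl fun n _ => ?_
          simp only [f, dif_pos n.2, Finset.sum_mul]
      _ = _ := by rw [Finset.sum_congr rfl fun g _ => h1 g, Finset.sum_const, Finset.card_univ, nsmul_eq_mul,
            Nat.card_eq_fintype_card (α := G), mul_assoc]
  have hzero : ∑ χ ∈ Finset.univ.filter (· ∈ B), classInner (fun n : N => (χ : G → ℂ) n) (θ : N → ℂ) * (χ : G → ℂ) u = 0 := by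
    have hx : ∀ x : G, x ∈ N → ∑ χ ∈ Finset.univ.filter (· ∈ B), (χ : G → ℂ) 1 * (χ : G → ℂ) (x * u) = 0 := by
      intro x hx
      have h := congrArg (starRingEnd ℂ) (H40.sum_block_mul_conj_eq_zero hM hB (x := 1) (y := x * u)
        (by simpa using (Fact.out : p.Prime).not_dvd_one) (hu x hx))
      rw [map_sum, map_zero] at h
      rw [← h]
      refine Finset.sum_congr rfl fun χ _ => ?_
      rw [map_mul, Complex.conj_conj, H43.irr_charDegree_spec χ, map_natCast]
    have h2 : ∑ χ ∈ Finset.univ.filter (· ∈ B), (χ : G → ℂ) 1 * ∑ x, f x * (χ : G → ℂ) (x * u) = 0 := by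
      simp only [Finset.mul_sum]
      rw [Finset.sum_comm]
      refine Finset.sum_eq_zero fun x _ => ?_
      by_cases hxN : x ∈ N
      · refine (Finset.sum_congr rfl fun χ _ => mul_left_comm _ (f x) _).trans ?_
        rw [← Finset.mul_sum, hx x hxN, mul_zero]
      · refine Finset.sum_eq_zero fun χ _ => ?_
        simp only [f, dif_neg hxN, zero_mul, mul_zero]
    have h3 : (Nat.card G : ℂ) * (Nat.card N : ℂ) ≠ 0 :=
      mul_ne_zero (Nat.cast_ne_zero.2 Nat.card_pos.ne') (Nat.cast_ne_zero.2 Nat.card_pos.ne')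
    refine (mul_eq_zero.1 (?_ : (Nat.card G : ℂ) * (Nat.card N : ℂ) * _ = 0)).resolve_left h3
    rw [Finset.mul_sum, ← h2]
    refine Finset.sum_congr rfl fun χ _ => ?_
    rw [H43.sum_mul_translate hf χ u, hm, ← mul_assoc, ← mul_assoc, mul_div_cancel₀ _ (H26.irr_one_ne_zero χ)]
  set K : ℂ := (((H44.inertia N (θ : N → ℂ)).index * charDegree (θ : N → ℂ) : ℕ) : ℂ)
  have hdeg : ∀ χ : IrrCharacter G, classInner (fun n : N => (χ : G → ℂ) n) (θ : N → ℂ) ≠ 0 →
      (χ : G → ℂ) 1 = K * classInner (fun n : N => (χ : G → ℂ) n) (θ : N → ℂ) := by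
    intro χ hχ
    obtain ⟨e, he, hd⟩ := H44.exists_degree_eq_index_inertia N χ θ hχ
    rw [he, H43.irr_charDegree_spec χ, hd]
    push_cast [K]
    ring
  have h4 := congrArg (K * ·) hzero
  simp only [Finset.mul_sum, mul_zero] at h4
  refine Eq.trans ?_ h4
  refine (Finset.sum_subset_zero_on_sdiff ?_ ?_ ?_)
  · intro χ hχ
    simp only [Finset.mem_filter, Finset.mem_univ, true_and] at hχ ⊢
    exact hχ.1
  · intro χ hχ
    simp only [Finset.mem_sdiff, Finset.mem_filter, Finset.mem_univ, true_and, not_and, not_not] at hχ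
    rw [hχ.2 hχ.1, zero_mul, mul_zero]
  · intro χ hχ
    simp only [Finset.mem_filter, Finset.mem_univ, true_and] at hχ
    rw [hdeg χ hχ.2, mul_assoc]

theorem count_alternatives {M : Ideal AlgInt} (hM : IsPModular p M) {B : Set (IrrCharacter G)} (hB : IsPBlock M B)
    (P : Sylow p G) (N : Subgroup G) [N.Normal] [Fintype N] (hPN : ¬ (P : Subgroup G) ≤ N) (θ : IrrCharacter N) :
    (Nat.card {χ : IrrCharacter G // χ ∈ B ∧ ¬ p ∣ charDegree (χ : G → ℂ) ∧ classInner (fun n : N => (χ : G → ℂ) n) (θ : N → ℂ) ≠ 0} = 0 ∨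
      2 ≤ Nat.card {χ : IrrCharacter G // χ ∈ B ∧ ¬ p ∣ charDegree (χ : G → ℂ) ∧ classInner (fun n : N => (χ : G → ℂ) n) (θ : N → ℂ) ≠ 0}) ∧
    (p ≤ 3 → p ∣ Nat.card {χ : IrrCharacter G // χ ∈ B ∧ ¬ p ∣ charDegree (χ : G → ℂ) ∧ classInner (fun n : N => (χ : G → ℂ) n) (θ : N → ℂ) ≠ 0}) := by
  classical
  have := hM.2.1
  have := H41.IsPModular.charP hM
  have hp := (Fact.out : p.Prime)
  obtain ⟨u, huP, huN⟩ := Set.not_subset.1 hPN
  obtain ⟨j, hj⟩ := IsPGroup.iff_orderOf.1 P.2 ⟨u, huP⟩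
  rw [Subgroup.orderOf_mk] at hj
  have hsing : ∀ n ∈ N, p ∣ orderOf (n * u) := by
    intro n hn
    refine dvd_trans ?_ (orderOf_map_dvd (QuotientGroup.mk' N) (n * u))
    rw [QuotientGroup.mk'_apply, QuotientGroup.mk_mul, (QuotientGroup.eq_one_iff n).2 hn, one_mul]
    obtain ⟨i, -, hi⟩ := (Nat.dvd_prime_pow hp).1 (hj ▸ orderOf_map_dvd (QuotientGroup.mk' N) u)
    rw [QuotientGroup.mk'_apply] at hi
    rcases Nat.eq_zero_or_pos i with rfl | hi0
    · rw [pow_zero, orderOf_eq_one_iff, QuotientGroup.eq_one_iff] at hi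
      exact absurd hi huN
    · exact hi ▸ dvd_pow_self p hi0.ne'
  set A := Finset.univ.filter (fun χ : IrrCharacter G => χ ∈ B ∧ classInner (fun n : N => (χ : G → ℂ) n) (θ : N → ℂ) ≠ 0) with hA
  have hsum : p ∣ ∑ χ ∈ A, charDegree (χ : G → ℂ) ^ 2 := by
    have h0 := sum_over_eq_zero hM hB N θ hsing
    rw [← hA] at h0
    let d : IrrCharacter G → localRing M := fun χ => (charDegree (χ : G → ℂ) : localRing M)
    let v : IrrCharacter G → localRing M := fun χ =>
      ⟨(χ : G → ℂ) u, H41.isIntegral_mem_localRing (H43.irr_isIntegral χ u)⟩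
    have hv : ∀ χ : IrrCharacter G, res M (v χ) = res M (d χ) := by
      intro χ
      refine (H41.memLocalIdeal_sub_iff (v χ) (d χ)).1 ?_
      have h := H40.memLocalIdeal_char_mul_sub hM (H26.irr_isCharacter χ) (Commute.one_right u) hj
      rw [mul_one, H43.irr_charDegree_spec χ] at h
      simpa [v, d] using h
    have h1 : res M (∑ χ ∈ A, d χ * v χ) = 0 := by
      rw [show ∑ χ ∈ A, d χ * v χ = 0 from Subtype.ext (by
        push_cast
        rw [← h0]
        exact Finset.sum_congr rfl fun χ _ => by simp [d, v, H43.irr_charDegree_spec χ]), map_zero]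
    rw [map_sum] at h1
    rw [← H41.IsPModular.natCast_eq_zero_iff hM, Nat.cast_sum, ← h1]
    refine Finset.sum_congr rfl fun χ _ => ?_
    rw [map_mul, hv, map_natCast, Nat.cast_pow, sq]
  set C := A.filter (fun χ : IrrCharacter G => ¬ p ∣ charDegree (χ : G → ℂ)) with hC
  have hcard : Nat.card {χ : IrrCharacter G // χ ∈ B ∧ ¬ p ∣ charDegree (χ : G → ℂ) ∧ classInner (fun n : N => (χ : G → ℂ) n) (θ : N → ℂ) ≠ 0} = C.card := by
    rw [Nat.card_eq_fintype_card, Fintype.card_subtype, hC, hA, Finset.filter_filter]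
    congr 1
    ext χ
    simp [and_comm, and_left_comm, and_assoc]
  rw [hcard]
  have hCsum : (∑ χ ∈ C, ((charDegree (χ : G → ℂ) : ℕ) : ZMod p) ^ 2) = 0 := by
    rw [hC, Finset.sum_filter_of_ne]
    · rw [← (ZMod.natCast_eq_zero_iff _ p).2 hsum]; push_cast; rfl
    · intro χ _ hne hd
      rw [(ZMod.natCast_eq_zero_iff _ p).2 hd] at hne
      simp at hne
  constructor
  · by_contra hcon
    push Not at hcon
    obtain ⟨χ, hχ⟩ := Finset.card_eq_one.1 (show C.card = 1 by omega)
    rw [hχ, Finset.sum_singleton, sq_eq_zero_iff, ZMod.natCast_eq_zero_iff] at hCsum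
    have : χ ∈ C := hχ ▸ Finset.mem_singleton_self χ
    exact (Finset.mem_filter.1 this).2 hCsum
  · intro hp3
    have h1 : ∀ χ ∈ C, ((charDegree (χ : G → ℂ) : ℕ) : ZMod p) ^ 2 = 1 := by
      intro χ hχ
      have hne : ((charDegree (χ : G → ℂ) : ℕ) : ZMod p) ≠ 0 := fun h =>
        (Finset.mem_filter.1 hχ).2 ((ZMod.natCast_eq_zero_iff _ p).1 h)
      have h2 := ZMod.pow_card_sub_one_eq_one hne
      have : p = 2 ∨ p = 3 := by have := hp.two_le; omega
      rcases this with rfl | rfl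
      · rw [show (2 : ℕ) - 1 = 1 from rfl, pow_one] at h2; rw [h2, one_pow]
      · exact h2
    rw [Finset.sum_congr rfl h1, Finset.sum_const, nsmul_eq_mul, mul_one, ZMod.natCast_eq_zero_iff] at hCsum
    exact hCsum

end Cfsg.Agent.H28.OverCharacterCount
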