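import Cfsg.Agent.H26.CharReal
import Cfsg.Agent.H26.CharFS
import Cfsg.Agent.H43.Constituents
import Cfsg.Agent.H25.CharInd
import Cfsg.Agent.H27.DefectZero
import Cfsg.Agent.S0887
import Mathlib.LinearAlgebra.Matrix.BilinearForm
import Mathlib.LinearAlgebra.Matrix.SesquilinearForm

/-!
# A real character over a character of `2`-defect zero with indicator one

If `G/N` is a `2`-group, `P` a Sylow `2`-subgroup and `φ` has `2`-defect zero, the number of
trivial constituents on `P` of the character induced from `φ` is odd; complex conjugation then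
leaves a real character over `φ` with multiplicity one and an odd number of trivial constituents
on `P`, and an invariant alternating form is impossible for such a character.
-/

set_option autoImplicit false
set_option linter.unusedSectionVars false

namespace Cfsg.Agent.H28.RealOverDefectZero

open Cfsg
open scoped ComplexConjugate

variable {G : Type*} [Group G] [Fintype G]

/-- A skew form that is non-degenerate forces even dimension. -/
theorem even_finrank_of_skew {W : Type*} [AddCommGroup W] [Module ℂ W] [FiniteDimensional ℂ W]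
    (B : LinearMap.BilinForm ℂ W) (hskew : ∀ x y, B x y = - B y x) (hnd : B.Nondegenerate) :
    Even (Module.finrank ℂ W) := by
  classical
  let b := Module.finBasis ℂ W
  set M := LinearMap.BilinForm.toMatrix b B with hM
  have hdet : M.det ≠ 0 := LinearMap.BilinForm.nondegenerate_iff_det_ne_zero b |>.1 hnd
  have hT : M.transpose = -M := by
    ext i j
    rw [Matrix.transpose_apply, Matrix.neg_apply, hM, LinearMap.BilinForm.toMatrix_apply,
      LinearMap.BilinForm.toMatrix_apply, hskew]
  by_contra hodd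
  rw [Nat.not_even_iff_odd] at hodd
  have h := congrArg Matrix.det hT
  rw [Matrix.det_transpose, Matrix.det_neg, Fintype.card_fin, hodd.neg_one_pow, neg_one_mul] at h
  exact hdet (CharZero.eq_neg_self_iff.1 h)

/-- A real character without symmetric invariant form has evenly many trivial constituents on every subgroup. -/
theorem even_mult_oneIrr (χ : IrrCharacter G) (hreal : ∀ g, ((χ : G → ℂ) g).im = 0)
    (hν : H26.fsIndicator (χ : G → ℂ) ≠ 1) (P : Subgroup G) [Fintype P] :
    Even (H43.mult (fun u : P => (χ : G → ℂ) u) (H26.oneIrr P)) := by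
  classical
  obtain ⟨n, ρ, hρ, e⟩ := χ.2
  haveI := hρ
  let A : G →* Matrix (Fin n) (Fin n) ℂ :=
    { toFun := fun x => LinearMap.toMatrix' (ρ x)
      map_one' := by simp
      map_mul' := fun x y => by simp [Module.End.mul_eq_comp, LinearMap.toMatrix'_comp] }
  have hA : ∀ g, Matrix.trace (A g) = (χ : G → ℂ) g := fun g => by
    rw [← e]; exact (LinearMap.trace_eq_matrix_trace ℂ (Pi.basisFun ℂ (Fin n)) (ρ g)).symm
  obtain ⟨⟨M, hM0, hMinv⟩, hsym⟩ := H26.invariant_forms A χ hA hreal
  have hν' : H26.fsIndicator (χ : G → ℂ) = -1 :=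
    (((H26.fsIndicator_cases χ).2 ((H26.conjIrr_eq_self_iff χ).2 hreal)).resolve_left hν)
  have hskewM : M.transpose = -M := by rw [hsym M hMinv, hν', neg_one_smul]
  let B : LinearMap.BilinForm ℂ (Fin n → ℂ) := Matrix.toBilin' M
  have hB : ∀ x y, B x y = dotProduct x (M.mulVec y) := fun x y => Matrix.toBilin'_apply' M x y
  have hBskew : ∀ x y, B x y = - B y x := by
    intro x y
    rw [hB, hB, Matrix.dotProduct_mulVec, ← Matrix.mulVec_transpose, dotProduct_comm, hskewM,
      Matrix.neg_mulVec, dotProduct_neg]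
  have hBinv : ∀ g x y, B (ρ g x) (ρ g y) = B x y := by
    intro g x y
    have h : ∀ z, ρ g z = (A g).mulVec z := fun z => (LinearMap.toMatrix'_mulVec (ρ g) z).symm
    rw [hB, hB, h, h, Matrix.mulVec_mulVec, Matrix.dotProduct_mulVec, Matrix.dotProduct_mulVec,
      ← Matrix.vecMul_transpose, Matrix.vecMul_vecMul, ← Matrix.mul_assoc, hMinv g]
  -- non-degeneracy on the whole space
  have hker : ∀ x, (∀ y, B x y = 0) → x = 0 := by
    let K : Subrepresentation ρ :=
      { toSubmodule := LinearMap.ker B
        apply_mem_toSubmodule := fun g x hx => by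
          rw [LinearMap.mem_ker] at hx ⊢
          refine LinearMap.ext fun y => ?_
          have h1 : y = ρ g (ρ g⁻¹ y) := by
            rw [← Module.End.mul_apply, ← map_mul, mul_inv_cancel, map_one, Module.End.one_apply]
          rw [h1, hBinv, hx]; rfl }
    rcases eq_bot_or_eq_top K with hK | hK
    · intro x hx
      have hxK : x ∈ K.toSubmodule := LinearMap.mem_ker.2 (LinearMap.ext hx)
      rw [hK] at hxK
      exact (Submodule.mem_bot ℂ).1 hxK
    · exfalso
      apply hM0
      ext i j
      have hxK : (Pi.single i 1 : Fin n → ℂ) ∈ K.toSubmodule := by rw [hK]; exact Submodule.mem_top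
      have h1 := LinearMap.congr_fun (LinearMap.mem_ker.1 hxK) (Pi.single j 1)
      rw [hB] at h1
      simpa [Matrix.mulVec_single_one, single_dotProduct] using h1
  set σ : Representation ℂ P (Fin n → ℂ) := ρ.comp P.subtype with hσ
  set W := Representation.invariants σ with hW
  have hcount : H43.mult (fun u : P => (χ : G → ℂ) u) (H26.oneIrr P) = Module.finrank ℂ W := by
    refine H43.mult_eq_of_classInner ?_
    rw [classInner, hW]
    refine Eq.trans ?_ (FDRep.average_char_eq_finrank_invariants (FDRep.of σ))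
    congr 1
    refine Finset.sum_congr rfl fun u _ => ?_
    rw [H26.oneIrr_val, map_one, mul_one, ← e]
    rfl
  rw [hcount]
  refine even_finrank_of_skew (B.restrict W) (fun x y => hBskew x y) ?_
  -- averaging
  have havg : ∀ w ∈ W, ∀ y : Fin n → ℂ, (Nat.card P : ℂ) * B w y = B w (∑ u : P, σ u y) := by
    intro w hw y
    rw [map_sum]
    have h1 : ∀ u : P, B w (σ u y) = B w y := fun u => by
      conv_lhs => rw [← (Representation.mem_invariants σ w).1 hw u]
      exact hBinv (u : G) w y
    rw [Finset.sum_congr rfl fun u _ => h1 u, Finset.sum_const, Finset.card_univ, nsmul_eq_mul,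
      Nat.card_eq_fintype_card]
  have hleft : ∀ w : W, (∀ y : W, B.restrict W w y = 0) → w = 0 := by
    intro w hw
    refine Subtype.ext (hker _ fun y => ?_)
    have hmem : ∑ u : P, σ u y ∈ W := by
      rw [Representation.mem_invariants]
      intro v
      rw [map_sum]
      refine Fintype.sum_equiv (Equiv.mulLeft v) _ _ fun u => ?_
      rw [Equiv.coe_mulLeft, map_mul]; rfl
    have h2 : B (w : Fin n → ℂ) (∑ u : P, σ u y) = 0 := hw ⟨_, hmem⟩
    rw [← havg w w.2 y] at h2
    exact (mul_eq_zero.1 h2).resolve_left (Nat.cast_ne_zero.2 Nat.card_pos.ne')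
  exact ⟨hleft, fun w hw => hleft w fun y => by
    show B (w : Fin n → ℂ) (y : Fin n → ℂ) = 0
    rw [hBskew]; exact neg_eq_zero.2 (hw y)⟩

theorem exists_real_one_over (N : Subgroup G) [N.Normal] [Fintype N] (h2 : IsPGroup 2 (G ⧸ N))
    (φ : IrrCharacter N) (hdef : 2 ^ (Nat.card N).factorization 2 ∣ charDegree (φ : N → ℂ))
    (hconj : ∃ g : G, ∀ n n' : N, (n' : G) = g * (n : G) * g⁻¹ → (φ : N → ℂ) n' = conj ((φ : N → ℂ) n)) :
    ∃ χ : IrrCharacter G, H26.fsIndicator (χ : G → ℂ) = 1 ∧ classInner (fun n : N => (χ : G → ℂ) n) (φ : N → ℂ) = 1 := by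
  classical
  obtain ⟨P⟩ : Nonempty (Sylow 2 G) := inferInstance
  have := Fintype.ofFinite (P : Subgroup G)
  set ξ := indFun N (φ : N → ℂ) with hξdef
  have hξ : IsCharacter G ξ := H25.isCharacter_indFun N (H26.irr_isCharacter φ)
  let m : IrrCharacter G → ℕ := fun χ => H43.restrMult N χ φ
  let c : IrrCharacter G → ℕ := fun χ => H43.mult (fun u : (P : Subgroup G) => (χ : G → ℂ) u) (H26.oneIrr (P : Subgroup G))
  have hm : ∀ χ : IrrCharacter G, classInner (fun n : N => (χ : G → ℂ) n) (φ : N → ℂ) = (m χ : ℂ) := fun χ =>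
    H43.classInner_eq_mult (H43.isCharacter_restr N χ) φ
  have hmξ : ∀ χ, H43.mult ξ χ = m χ := fun χ => H43.mult_eq_of_classInner (by
    rw [hξdef, H25.classInner_indFun_left N _ _ (H26.irr_isClassFunction χ), ← H25.conj_classInner, hm, map_natCast])
  set f := H43.mult (fun u : (P : Subgroup G) => ξ u) (H26.oneIrr (P : Subgroup G)) with hf
  have hfsum : f = ∑ χ : IrrCharacter G, m χ * c χ := by
    rw [hf]
    refine (H43.mult_comp (P : Subgroup G).subtype hξ _).trans (Finset.sum_congr rfl fun χ _ => ?_)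
    rw [hmξ]; rfl
  have hvanish : ∀ n : N, 2 ∣ orderOf n → (φ : N → ℂ) n = 0 := fun n hn =>
    H27.char_eq_zero_of_defect_zero φ Nat.prime_two (Nat.ordProj_dvd _ _)
      (Nat.pow_succ_factorization_not_dvd Nat.card_pos.ne' Nat.prime_two)
      (H43.irr_charDegree_spec φ) hdef n hn
  -- the number of trivial constituents of the induced character
  have hval : (f : ℂ) * (Nat.card (P : Subgroup G) : ℂ) * (Nat.card N : ℂ) = (Nat.card G : ℂ) * (charDegree (φ : N → ℂ) : ℂ) := by
    have hzero : ∀ u : (P : Subgroup G), u ≠ 1 → ξ u = 0 := by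
      intro u hu
      simp only [hξdef, indFun]
      rw [Finset.sum_eq_zero, mul_zero]
      intro x _
      by_cases hx : x⁻¹ * (u : G) * x ∈ N
      · rw [extendByZero, show x⁻¹ * (u : G) * x = ((⟨_, hx⟩ : N) : G) from rfl, Subtype.val_injective.extend_apply]
        refine hvanish _ ?_
        rw [← Subgroup.orderOf_coe]
        show 2 ∣ orderOf (x⁻¹ * (u : G) * x)
        have e1 : orderOf (x⁻¹ * (u : G) * x) = orderOf (u : G) := by
          have := (MulAut.conj x⁻¹).orderOf_eq (u : G)
          rwa [MulAut.conj_apply, inv_inv] at this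
        obtain ⟨j, hj⟩ := IsPGroup.iff_orderOf.1 P.2 u
        rw [e1, Subgroup.orderOf_coe, hj]
        refine dvd_pow_self 2 fun h0 => hu ?_
        rw [h0, pow_zero] at hj
        exact orderOf_eq_one_iff.1 hj
      · rw [extendByZero, Function.extend_apply' _ _ _ (fun ⟨n, hn⟩ => hx (hn ▸ n.2)), Pi.zero_apply]
    have h1 : ξ (1 : G) = (Nat.card N : ℂ)⁻¹ * ((Nat.card G : ℂ) * (charDegree (φ : N → ℂ) : ℂ)) := by
      simp only [hξdef, indFun, mul_one, inv_mul_cancel]
      rw [extendByZero, ← OneMemClass.coe_one N, Subtype.val_injective.extend_apply, Finset.sum_const,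
        Finset.card_univ, nsmul_eq_mul, Nat.card_eq_fintype_card (α := G), H43.irr_charDegree_spec φ]
    have h3 : classInner (fun u : (P : Subgroup G) => ξ u) ((H26.oneIrr (P : Subgroup G)).1) = (f : ℂ) :=
      H43.classInner_eq_mult (H26.isCharacter_comp hξ (P : Subgroup G).subtype) _
    rw [classInner, Finset.sum_eq_single (1 : (P : Subgroup G)) (fun u _ hu => by
      show ξ u * _ = 0
      rw [hzero u hu, zero_mul]) (fun h => absurd (Finset.mem_univ _) h)] at h3
    change (Nat.card (P : Subgroup G) : ℂ)⁻¹ * (ξ (1 : G) * conj ((H26.oneIrr (P : Subgroup G)).1 1)) = _ at h3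
    rw [H26.oneIrr_val, map_one, mul_one, h1] at h3
    rw [← h3]
    have hP0 : (Nat.card (P : Subgroup G) : ℂ) ≠ 0 := Nat.cast_ne_zero.2 Nat.card_pos.ne'
    have hN0 : (Nat.card N : ℂ) ≠ 0 := Nat.cast_ne_zero.2 Nat.card_pos.ne'
    field_simp
  have hodd : Odd f := by
    have hnat : f * Nat.card (P : Subgroup G) * Nat.card N = Nat.card G * charDegree (φ : N → ℂ) := by exact_mod_cast hval
    have hf0 : f ≠ 0 := fun h0 => by
      rw [h0, zero_mul, zero_mul] at hnat
      exact (mul_ne_zero Nat.card_pos.ne' (H43.irr_charDegree_pos φ).ne') hnat.symm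
    have hfac : f.factorization 2 + (Nat.card (P : Subgroup G)).factorization 2 + (Nat.card N).factorization 2 =
        (Nat.card G).factorization 2 + (charDegree (φ : N → ℂ)).factorization 2 := by
      have h := congrArg (fun k : ℕ => k.factorization 2) hnat
      simp only [Nat.factorization_mul (mul_ne_zero hf0 Nat.card_pos.ne') Nat.card_pos.ne',
        Nat.factorization_mul hf0 Nat.card_pos.ne',
        Nat.factorization_mul Nat.card_pos.ne' (H43.irr_charDegree_pos φ).ne', Finsupp.add_apply] at h
      exact h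
    rw [P.card_eq_multiplicity, Nat.Prime.factorization_pow Nat.prime_two, Finsupp.single_eq_same] at hfac
    have hd1 := (Nat.Prime.pow_dvd_iff_le_factorization Nat.prime_two (H43.irr_charDegree_pos φ).ne').1 hdef
    have hd2 := (Nat.factorization_le_iff_dvd (H43.irr_charDegree_pos φ).ne' Nat.card_pos.ne').2 (H43.irr_charDegree_dvd φ) 2
    have hf2 : f.factorization 2 = 0 := by omega
    refine Nat.odd_iff.2 (Nat.two_dvd_ne_zero.1 fun hdvd => ?_)
    have := (Nat.Prime.dvd_iff_one_le_factorization Nat.prime_two hf0).1 hdvd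
    omega
  -- complex conjugation
  obtain ⟨g, hg⟩ := hconj
  have hmconj : ∀ χ, m (H26.conjIrr χ) = m χ := by
    intro χ
    refine H43.mult_eq_of_classInner ?_
    have h1 : classInner (fun n : N => (H26.conjIrr χ).1 n) (φ : N → ℂ) =
        conj (classInner (fun n : N => (χ : G → ℂ) n) (fun n : N => conj ((φ : N → ℂ) n))) := by
      simp only [classInner, map_mul, map_sum, map_inv₀, map_natCast, Complex.conj_conj, H26.conjIrr_val]
    have h2 : (fun n : N => conj ((φ : N → ℂ) n)) = ((H43.irrConj N g φ : IrrCharacter N) : N → ℂ) := funext fun n => by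
      rw [H43.irrConj_apply]
      exact (hg n _ (MulAut.conjNormal_apply g n)).symm
    rw [h1, h2, H43.classInner_eq_mult (H43.isCharacter_restr N χ), map_natCast]
    exact congrArg _ (H43.restrMult_irrConj N χ g φ)
  have hcconj : ∀ χ, c (H26.conjIrr χ) = c χ := by
    intro χ
    refine H43.mult_eq_of_classInner ?_
    have hc := H43.classInner_eq_mult (H26.isCharacter_comp (H26.irr_isCharacter χ) (P : Subgroup G).subtype) (H26.oneIrr (P : Subgroup G))
    have h1 : classInner (fun u : (P : Subgroup G) => (H26.conjIrr χ).1 u) ((H26.oneIrr (P : Subgroup G)).1) =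
        conj (classInner (fun u : (P : Subgroup G) => (χ : G → ℂ) u) ((H26.oneIrr (P : Subgroup G)).1)) := by
      simp only [classInner, map_mul, map_sum, map_inv₀, map_natCast, map_one, mul_one, H26.conjIrr_val, H26.oneIrr_val]
    rw [h1]
    exact (congrArg conj hc).trans (map_natCast _ _)
  obtain ⟨χ, hfix, hχodd⟩ : ∃ χ, H26.conjIrr χ = χ ∧ Odd (m χ * c χ) := by
    by_contra hall
    push Not at hall
    have hz : ((∑ χ : IrrCharacter G, m χ * c χ : ℕ) : ZMod 2) = 0 := by
      push_cast
      refine Finset.sum_involution (fun χ _ => H26.conjIrr χ) ?_ ?_ (fun χ _ => Finset.mem_univ _)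
        (fun χ _ => H26.conjIrr_conjIrr χ)
      · intro χ _
        rw [hmconj, hcconj, CharTwo.add_self_eq_zero]
      · intro χ _ hne hfx
        apply hne
        rw [← Nat.cast_mul, ZMod.natCast_eq_zero_iff]
        exact even_iff_two_dvd.1 (Nat.not_odd_iff_even.1 (hall χ hfx))
    rw [← hfsum, ZMod.natCast_eq_zero_iff] at hz
    exact Nat.not_even_iff_odd.2 hodd (even_iff_two_dvd.2 hz)
  rw [Nat.odd_mul] at hχodd
  have hreal := (H26.conjIrr_eq_self_iff χ).1 hfix
  refine ⟨χ, by_contra fun hν => ?_, ?_⟩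
  · exact Nat.not_even_iff_odd.2 hχodd.2 (even_mult_oneIrr χ hreal hν (P : Subgroup G))
  · -- the multiplicity is odd and divides the index
    have hne : classInner (fun n : N => (χ : G → ℂ) n) (φ : N → ℂ) ≠ 0 := by
      rw [hm]; exact Nat.cast_ne_zero.2 hχodd.1.pos.ne'
    obtain ⟨hd, hdvd⟩ := S0887.result N (χ : G → ℂ) χ.2 (φ : N → ℂ) φ.2 hne _ _
      (H43.irr_charDegree_spec χ) (H43.irr_charDegree_spec φ)
    obtain ⟨k, hk⟩ := H43.restrMult_mul_degree_dvd N χ (θ := φ) hχodd.1.pos.ne'
    have hmd : m χ ∣ charDegree (χ : G → ℂ) / charDegree (φ : N → ℂ) := by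
      refine ⟨k, ?_⟩
      rw [hk, show H43.restrMult N χ φ = m χ from rfl, mul_right_comm, Nat.mul_div_cancel _ (H43.irr_charDegree_pos φ)]
    obtain ⟨j, hj⟩ := h2.exists_card_eq
    rw [← Subgroup.index_eq_card] at hj
    obtain ⟨i, -, hi⟩ := (Nat.dvd_prime_pow Nat.prime_two).1 (hj ▸ hmd.trans hdvd)
    have hi0 : i = 0 := by
      by_contra hi0
      exact Nat.not_even_iff_odd.2 hχodd.1 (hi ▸ (Nat.even_pow.2 ⟨even_two, hi0⟩))
    rw [hm, hi, hi0, pow_zero, Nat.cast_one]

end Cfsg.Agent.H28.RealOverDefectZero
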