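import Mathlib
import Cfsg.Agent.H25.LinearExtend
import Cfsg.Agent.H24.PGroupBasic
import Cfsg.Agent.H44.Inflation
import Cfsg.Agent.H91.Small.LengthTwo
import Cfsg.Agent.H19.SchurZassenhaus
import Cfsg.Agent.H19.MinimalNormal
import Cfsg.Agent.H19.Cores

/-!
# Kernels of the characters of degree prime to `p`, and cores inside Frattini subgroups
-/

set_option autoImplicit false

namespace Cfsg.Agent.H28.SepKer

open scoped ComplexConjugate Pointwise

variable {G : Type*} [Group G] [Finite G] {p q : ℕ} [Fact p.Prime] [Fact q.Prime]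

/-- A Sylow `p`-subgroup meets the common kernel of all `p'`-degree characters in its derived
subgroup. -/
theorem mem_commutator_of_trivial (P : Sylow p G) (N : Subgroup G)
    (hN : ∀ ψ : Cfsg.IrrCharacter G, ¬ p ∣ Cfsg.charDegree (ψ : G → ℂ) → N ≤ H44.kerOf ψ) :
    ∀ x : ↥(P : Subgroup G), (x : G) ∈ N → x ∈ commutator ↥(P : Subgroup G) := by
  classical
  have := Fintype.ofFinite G
  intro x hx
  by_contra hx'
  obtain ⟨lam, hlam⟩ := H25.exists_linear_sep hx'
  set θ : ↥(P : Subgroup G) → ℂ := fun y => (lam y : ℂ) with hθdef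
  have hθi : Cfsg.IsIrrCharacter (P : Subgroup G) θ := H26.isIrrCharacter_hom lam
  have hθ1 : θ 1 = 1 := by simp [hθdef]
  obtain ⟨m, hm, hsum⟩ :=
    H26.exists_nat_coeffs (H25.isCharacter_indFun (P : Subgroup G) (H26.isCharacter_of_irr hθi))
  obtain ⟨ψ, hmψ, hψp⟩ : ∃ ψ : Cfsg.IrrCharacter G, m ψ ≠ 0 ∧
      ¬ p ∣ Cfsg.charDegree (ψ : G → ℂ) := by
    by_contra hcon
    push Not at hcon
    have h1 := congrFun hsum 1
    rw [H25.indFun_one, hθ1, mul_one, Finset.sum_apply] at h1
    have h2 : ((P : Subgroup G).index : ℂ) =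
        ((∑ ψ : Cfsg.IrrCharacter G, m ψ * Cfsg.charDegree ψ.1 : ℕ) : ℂ) := by
      rw [h1]; push_cast
      exact Finset.sum_congr rfl fun ψ _ => by
        rw [Pi.smul_apply, smul_eq_mul, H44.cast_charDegree]
    apply P.not_dvd_index
    rw [Nat.cast_inj.mp h2]
    refine Finset.dvd_sum fun ψ _ => ?_
    by_cases h : m ψ = 0
    · simp [h]
    · exact Dvd.dvd.mul_left (hcon ψ h) _
  have hres := H25.classInner_indFun_left (P : Subgroup G) θ ψ.1 (H26.irr_isClassFunction ψ)
  rw [hm ψ] at hres
  set S : ℂ := ∑ y : ↥(P : Subgroup G), θ y * conj (ψ.1 y) with hS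
  have hS0 : S ≠ 0 := by
    intro h0
    apply hmψ
    rw [Cfsg.classInner, ← hS, h0, mul_zero] at hres
    exact_mod_cast hres
  have hshift : S = θ x * S := by
    rw [hS, Finset.mul_sum]
    refine (Fintype.sum_equiv (Equiv.mulRight x) _ _ fun y => ?_).symm
    show θ x * (θ y * conj (ψ.1 y)) = θ (y * x) * conj (ψ.1 ((y * x : ↥(P : Subgroup G)) : G))
    rw [Subgroup.coe_mul, H44.irr_mul_of_mem_kerOf (hN ψ hψp hx), hθdef]
    simp only [map_mul, Units.val_mul]
    ring
  apply hlam
  apply Units.ext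
  rw [Units.val_one]
  exact mul_right_cancel₀ hS0 (hshift.symm.trans (one_mul S).symm)

/-- A normal `p`-subgroup inside the derived group of a Sylow subgroup lies in every maximal
subgroup. -/
theorem le_frattini_of_le_commutator (P : Sylow p G) (A : Subgroup G) [A.Normal]
    (hAP : A ≤ (P : Subgroup G))
    (hA : ∀ x : ↥(P : Subgroup G), (x : G) ∈ A → x ∈ commutator ↥(P : Subgroup G)) :
    A ≤ frattini G := by
  refine le_iInf₂ fun U hU => ?_
  by_contra hAU
  have hsup : A ⊔ U = ⊤ := hU.2 _ (lt_of_le_of_ne le_sup_right fun e => hAU (e ▸ le_sup_left))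
  have htop : U.subgroupOf (P : Subgroup G) = ⊤ := by
    refine frattini_nongenerating (top_unique fun x _ => ?_)
    obtain ⟨a, ha, u, hu, e⟩ := H19.exists_mul_of_sup_eq_top hsup (x : G)
    have hu' : u ∈ (P : Subgroup G) := by
      have : u = a⁻¹ * x := by rw [e, inv_mul_cancel_left]
      rw [this]
      exact mul_mem (inv_mem (hAP ha)) x.2
    have : x = ⟨a, hAP ha⟩ * ⟨u, hu'⟩ := Subtype.ext e
    rw [this]
    exact mul_mem (Subgroup.mem_sup_right
        (H24.commutator_le_frattini P.isPGroup' (hA ⟨a, hAP ha⟩ ha)))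
      (Subgroup.mem_sup_left hu)
  exact hAU fun a ha => by
    have : (⟨a, hAP ha⟩ : ↥(P : Subgroup G)) ∈ U.subgroupOf (P : Subgroup G) :=
      htop ▸ Subgroup.mem_top _
    exact this

/-- A normal subgroup above the Frattini subgroup is not a `p`-group modulo it, if the `p`-core
lies in the Frattini subgroup. -/
theorem le_frattini_of_relIndex_pow (hp : Cfsg.pCore p G ≤ frattini G) (N : Subgroup G) [N.Normal]
    (hΦN : frattini G ≤ N) {k : ℕ} (hk : (frattini G).relIndex N = p ^ k) : N ≤ frattini G := by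
  obtain ⟨R⟩ : Nonempty (Sylow p ↥N) := inferInstance
  have hfr := Sylow.normalizer_sup_eq_top R
  set R0 := (R : Subgroup ↥N).map N.subtype with hR0
  have hsupN : (R : Subgroup ↥N) ⊔ (frattini G).subgroupOf N = ⊤ := by
    refine Subgroup.index_eq_one.mp ?_
    have h1 : ((R : Subgroup ↥N) ⊔ (frattini G).subgroupOf N).index ∣ p ^ k := by
      rw [← hk]
      exact Subgroup.index_dvd_of_le le_sup_right
    have h2 : ((R : Subgroup ↥N) ⊔ (frattini G).subgroupOf N).index ∣ (R : Subgroup ↥N).index :=
      Subgroup.index_dvd_of_le le_sup_left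
    exact Nat.eq_one_of_dvd_coprimes
      (Nat.Coprime.pow_left k ((Nat.Prime.coprime_iff_not_dvd Fact.out).2 R.not_dvd_index)) h1 h2
  have hN : N ≤ R0 ⊔ frattini G := by
    intro x hx
    have : (⟨x, hx⟩ : ↥N) ∈ (R : Subgroup ↥N) ⊔ (frattini G).subgroupOf N :=
      hsupN ▸ Subgroup.mem_top _
    have := Subgroup.mem_map_of_mem N.subtype this
    rw [Subgroup.map_sup] at this
    exact (sup_le_sup le_rfl (Subgroup.map_subgroupOf_eq_of_le hΦN).le :
      _ ≤ R0 ⊔ frattini G) this
  have hnt : Subgroup.normalizer (R0 : Set G) = ⊤ := by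
    refine frattini_nongenerating (top_unique (hfr.ge.trans (sup_le le_sup_left (hN.trans
      (sup_le (Subgroup.le_normalizer.trans le_sup_left) le_sup_right)))))
  have : R0.Normal := Subgroup.normalizer_eq_top_iff.mp hnt
  exact hN.trans (sup_le ((H19.le_pCore this (R.2.map N.subtype)).trans hp) le_rfl)

/-- If `G` is separable for `p` and `q`, has no normal subgroup of order prime to `p q`, and the
`p`- and `q`-cores lie in the Frattini subgroup, then `G` is trivial. -/
theorem subsingleton_of_cores_le_frattini (hpq : p ≠ q) (hps : Cfsg.IsPSolvable p G)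
    (hqs : Cfsg.IsPSolvable q G)
    (h1 : ∀ N : Subgroup G, N.Normal → ¬ p ∣ Nat.card N → ¬ q ∣ Nat.card N → N = ⊥)
    (hp : Cfsg.pCore p G ≤ frattini G) (hq : Cfsg.pCore q G ≤ frattini G) : Subsingleton G := by
  classical
  rw [← not_nontrivial_iff_subsingleton]
  intro hnt
  have hne : frattini G ≠ ⊤ := fun h => bot_ne_top (frattini_nongenerating (K := (⊥ : Subgroup G))
    (by rw [h, bot_sup_eq]))
  -- the Frattini subgroup involves only `p` and `q`
  have hΦ : ∀ r : ℕ, r.Prime → r ∣ Nat.card (frattini G) → r = p ∨ r = q := by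
    intro r hr hdvd
    by_contra hcon
    push Not at hcon
    have := Fact.mk hr
    have := frattini_nilpotent (G := G)
    obtain ⟨R⟩ : Nonempty (Sylow r ↥(frattini G)) := inferInstance
    have : (R : Subgroup ↥(frattini G)).Normal := inferInstance
    have := Sylow.characteristic_of_normal R this
    set R0 := (R : Subgroup ↥(frattini G)).map (frattini G).subtype
    have hR0n : R0.Normal := inferInstance
    obtain ⟨j, hj⟩ := IsPGroup.iff_card.1 (R.2.map (frattini G).subtype)
    have hnd : ∀ s : ℕ, s.Prime → r ≠ s → ¬ s ∣ Nat.card R0 := fun s hs hrs h =>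
      hrs ((Nat.prime_dvd_prime_iff_eq hs hr).1 (hs.dvd_of_dvd_pow (hj ▸ h))).symm
    have hbot : R0 = ⊥ := h1 R0 hR0n (hnd p Fact.out hcon.1) (hnd q Fact.out hcon.2)
    rw [Subgroup.map_eq_bot_iff_of_injective _ (frattini G).subtype_injective] at hbot
    exact R.ne_bot_of_dvd_card hdvd hbot
  -- a minimal normal subgroup modulo the Frattini subgroup
  let π := QuotientGroup.mk' (frattini G)
  have hπ : Function.Surjective π := QuotientGroup.mk'_surjective _
  have : Nontrivial (G ⧸ frattini G) := QuotientGroup.nontrivial_iff.2 hne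
  obtain ⟨L, hLn, hL0, -, hmin⟩ :=
    H19.exists_minimalNormal_le (⊤ : Subgroup (G ⧸ frattini G)) top_ne_bot
  have := hLn
  set N := L.comap π with hN
  have hΦN : frattini G ≤ N := fun x hx => by
    rw [hN, Subgroup.mem_comap, QuotientGroup.mk'_apply, (QuotientGroup.eq_one_iff x).2 hx]
    exact one_mem _
  have hrel : (frattini G).relIndex N = Nat.card L := by
    have h := Subgroup.relIndex_ker π (K := N)
    rwa [QuotientGroup.ker_mk', hN, Subgroup.map_comap_eq_self_of_surjective hπ] at h
  have hnle : ¬ N ≤ frattini G := fun h => hL0 (eq_bot_iff.2 fun y hy => by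
    obtain ⟨x, rfl⟩ := hπ y
    exact (QuotientGroup.eq_one_iff x).2 (h hy))
  rcases H91.LengthTwo.minimal_cases (H84.isPSolvable_of_surjective π hπ hps) hL0 hmin with hLp | hLp
  · obtain ⟨k, hk⟩ := hLp.exists_card_eq
    exact hnle (le_frattini_of_relIndex_pow hp N hΦN (hrel.trans hk))
  rcases H91.LengthTwo.minimal_cases (H84.isPSolvable_of_surjective π hπ hqs) hL0 hmin with hLq | hLq
  · obtain ⟨k, hk⟩ := hLq.exists_card_eq
    exact hnle (le_frattini_of_relIndex_pow hq N hΦN (hrel.trans hk))
  -- a `{p, q}'`-factor splits off a normal complement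
  set A := (frattini G).subgroupOf N with hA
  have hAc : Nat.card A = Nat.card (frattini G) :=
    Nat.card_congr (Subgroup.subgroupOfEquivOfLe hΦN).toEquiv
  have hcop : (Nat.card A).Coprime A.index := by
    rw [hAc]
    refine Nat.coprime_of_dvd fun r hr hr1 hr2 => ?_
    rw [show A.index = Nat.card L from hrel] at hr2
    rcases hΦ r hr hr1 with rfl | rfl
    · exact hLp hr2
    · exact hLq hr2
  obtain ⟨H, hH⟩ := Subgroup.exists_right_complement'_of_coprime hcop
  have hHcard : Nat.card H = Nat.card L :=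
    (H19.card_eq_index_of_isComplement' hH).trans hrel
  set H0 := H.map N.subtype with hH0
  have hsol : Group.IsSolvable A := by
    have := frattini_nilpotent (G := G)
    exact solvable_of_solvable_injective
      (f := (Subgroup.subgroupOfEquivOfLe hΦN).toMonoidHom) (MulEquiv.injective _)
  have hnt' : Subgroup.normalizer (H0 : Set G) = ⊤ := by
    refine frattini_nongenerating (top_unique fun g _ => ?_)
    let φ : MulAut ↥N := MulAut.conjNormal g
    have hK : Subgroup.IsComplement' A (H.map φ.toMonoidHom) :=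
      H19.isComplement'_of_card_eq_index hcop (by
        rw [Subgroup.card_map_of_injective (f := φ.toMonoidHom) (MulEquiv.injective φ)]
        exact H19.card_eq_index_of_isComplement' hH)
    obtain ⟨n, hn, e⟩ := H19.sz_conj A hcop (Or.inl hsol) hH hK
    rw [show MulAut.conj n • H = H.map (MulAut.conj n).toMonoidHom from rfl] at e
    have hnm : (n : G)⁻¹ * g ∈ Subgroup.normalizer (H0 : Set G) := by
      refine Subgroup.mem_normalizer_fintype fun y hy => ?_
      obtain ⟨x, hx, rfl⟩ := hy
      have h2 : φ x ∈ H.map (MulAut.conj n).toMonoidHom := e ▸ Subgroup.mem_map_of_mem _ hx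
      obtain ⟨x', hx', h3⟩ := h2
      have h4 : (n : G) * x' * (n : G)⁻¹ = g * x * g⁻¹ := congrArg Subtype.val h3
      refine ⟨x', hx', ?_⟩
      show (x' : G) = (n : G)⁻¹ * g * (x : G) * ((n : G)⁻¹ * g)⁻¹
      calc (x' : G) = (n : G)⁻¹ * ((n : G) * x' * (n : G)⁻¹) * n := by group
        _ = _ := by rw [h4]; group
    have : g = (n : G) * ((n : G)⁻¹ * g) := by rw [mul_inv_cancel_left]
    rw [this]
    exact mul_mem (Subgroup.mem_sup_right hn) (Subgroup.mem_sup_left hnm)
  have hH0n : H0.Normal := Subgroup.normalizer_eq_top_iff.mp hnt'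
  have hH0c : Nat.card H0 = Nat.card L := by
    rw [hH0, Subgroup.card_map_of_injective N.subtype_injective, hHcard]
  have hb : H0 = ⊥ := h1 H0 hH0n (by rwa [hH0c]) (by rwa [hH0c])
  exact hL0 (Subgroup.card_eq_one.mp (by rw [← hH0c, Subgroup.card_eq_one.mpr hb]))

end Cfsg.Agent.H28.SepKer
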